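import Cfsg.Agent.KnownB.AutPSL.Lang

/-! Field and graph-field automorphisms of `PSL_n(q)` are `PGL_n`-conjugate to standard ones, and
transport of centralisers and class counts along conjugation. -/

set_option autoImplicit false

namespace Cfsg.Agent.KnownB.AutPSL

open Matrix

universe u

variable {n : ℕ} {F : Type u} [Field F] [Fintype F]

theorem ringAut_comm (σ ρ : F ≃+* F) : Commute σ ρ := by
  obtain ⟨p, hp⟩ := CharP.exists F
  obtain ⟨m, hpp, hcard⟩ := FiniteField.card F p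
  haveI := Fact.mk hpp
  obtain ⟨e⟩ := exists_ringAut_equiv (F := F) (p := p) (f := m)
    (by rw [Nat.card_eq_fintype_card, hcard]) m.pos
  exact e.injective (by rw [map_mul, map_mul, mul_comm])

/-- A conjugate of `τ` is a conjugate under `PGL_n` when `τ` commutes with the standard field and
graph automorphisms. -/
theorem exists_conj_A (hn : 2 ≤ n) (τ : MulAut (Matrix.ProjectiveSpecialLinearGroup (Fin n) F))
    (h1 : ∀ ρ, Commute τ (Fd n F ρ)) (h2 : Commute τ (It n F))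
    (α x : MulAut (Matrix.ProjectiveSpecialLinearGroup (Fin n) F)) (hx : α * x * α⁻¹ = τ) :
    ∃ a : GL (Fin n) F, x = A n F a * τ * (A n F a)⁻¹ := by
  haveI := nontrivial_fin hn
  obtain ⟨g, ρ, e, h⟩ := exists_decomp α⁻¹
  refine ⟨g, ?_⟩
  have hW : Commute (Fd n F ρ * if e then It n F else 1) τ := by
    refine Commute.mul_left (h1 ρ).symm ?_
    cases e
    · simp
    · simpa using h2.symm
  have hxx : x = α⁻¹ * τ * α⁻¹⁻¹ := by rw [← hx]; group
  rw [hxx, h, mul_assoc (A n F g), mul_assoc (A n F g), hW.eq, _root_.mul_inv_rev (A n F g)]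
  group

omit [Fintype F] in
theorem commute_Fd_Fd {σ ρ : F ≃+* F} (h : Commute σ ρ) : Commute (Fd n F σ) (Fd n F ρ) :=
  h.map _

theorem field_class (hn : 2 ≤ n) {x : MulAut (Matrix.ProjectiveSpecialLinearGroup (Fin n) F)}
    (hx : Cfsg.IsFieldAutClassPSL x) :
    ∃ (σ : F ≃+* F) (a : GL (Fin n) F), σ ≠ 1 ∧ x = A n F a * Fd n F σ * (A n F a)⁻¹ ∧
      orderOf x = orderOf σ := by
  obtain ⟨α, σ, hσ, h⟩ := hx
  rw [isStdField_iff] at h
  obtain ⟨a, ha⟩ := exists_conj_A hn (Fd n F σ) (fun ρ => commute_Fd_Fd (ringAut_comm σ ρ))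
    (It_Fd σ).symm α x h
  refine ⟨σ, a, hσ, ha, ?_⟩
  rw [ha, ← MulAut.conj_apply, MulEquiv.orderOf_eq]
  refine orderOf_injective (Fd n F) ?_ σ
  rw [injective_iff_map_eq_one]
  intro ρ hρ
  exact (eq_of_A_mul_Fd_eq_one hn (g := 1) (by rw [map_one, one_mul, hρ])).1

theorem graphField_class {x : MulAut (Matrix.ProjectiveSpecialLinearGroup (Fin n) F)}
    (hx : Cfsg.IsGraphFieldAutClassPSL x) {r : ℕ} (hr : r.Prime) (hxr : orderOf x = r) :
    3 ≤ n ∧ r = 2 ∧ ∃ (σ : F ≃+* F) (a : GL (Fin n) F), σ ≠ 1 ∧ σ * σ = 1 ∧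
      x = A n F a * (Fd n F σ * It n F) * (A n F a)⁻¹ := by
  obtain ⟨hn, α, φ, γ, σ, hσ, hφ, hγ, h⟩ := hx
  rw [isStdField_iff] at hφ
  rw [isInverseTranspose_iff] at hγ
  subst hφ hγ
  obtain ⟨a, ha⟩ := exists_conj_A (show 2 ≤ n by omega) (Fd n F σ * It n F)
    (fun ρ => (commute_Fd_Fd (ringAut_comm σ ρ)).mul_left (It_Fd ρ))
    ((show Commute (Fd n F σ) (It n F) from (It_Fd σ).symm).mul_left (Commute.refl _)) α x h
  obtain ⟨π, -, -, hπ⟩ := exists_proj3 (F := F) hn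
  have h3 : π (Fd n F σ * It n F) = (σ, Multiplicative.ofAdd 1) := by
    rw [← hπ 1 σ (Multiplicative.ofAdd 1), map_one, one_mul, ItP_ofAdd_one]
  have h4 : (σ, (Multiplicative.ofAdd 1 : Multiplicative (ZMod 2))) ^ r = 1 := by
    rw [← h3, ← map_pow, ← hxr, ha, ← MulAut.conj_apply, MulEquiv.orderOf_eq, pow_orderOf_eq_one,
      map_one]
  obtain ⟨h5, h6⟩ := Prod.ext_iff.mp h4
  have h7 : r = 2 := by
    have h8 : orderOf (Multiplicative.ofAdd (1 : ZMod 2)) = 2 :=
      orderOf_eq_prime (by decide) (by decide)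
    have h9 := orderOf_dvd_of_pow_eq_one
      (show (Multiplicative.ofAdd (1 : ZMod 2)) ^ r = 1 from h6)
    rw [h8] at h9
    exact ((Nat.prime_dvd_prime_iff_eq Nat.prime_two hr).mp h9).symm
  refine ⟨hn, h7, σ, a, hσ, ?_, ha⟩
  rw [← pow_two, ← h7]
  exact h5

omit [Fintype F] in
theorem isConjUnder_congr {H : Subgroup (MulAut (Matrix.ProjectiveSpecialLinearGroup (Fin n) F))}
    {τ x y a : MulAut (Matrix.ProjectiveSpecialLinearGroup (Fin n) F)} (ha : a ∈ H)
    (hx : x = a * τ * a⁻¹) : Cfsg.IsConjUnder H x y ↔ Cfsg.IsConjUnder H τ y := by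
  constructor
  · rintro ⟨h, hh, rfl⟩
    exact ⟨h * a, mul_mem hh ha, by rw [hx]; group⟩
  · rintro ⟨h, hh, rfl⟩
    exact ⟨h * a⁻¹, mul_mem hh (inv_mem ha), by rw [hx]; group⟩

omit [Fintype F] in
theorem splitClassCount_congr {H : Subgroup (MulAut (Matrix.ProjectiveSpecialLinearGroup (Fin n) F))}
    (K : Subgroup (MulAut (Matrix.ProjectiveSpecialLinearGroup (Fin n) F)))
    {τ x a : MulAut (Matrix.ProjectiveSpecialLinearGroup (Fin n) F)} (ha : a ∈ H)
    (hx : x = a * τ * a⁻¹) :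
    Cfsg.splitClassCount H K x = Cfsg.splitClassCount H K τ :=
  Nat.card_congr (Quot.congr (Equiv.subtypeEquivRight fun _ => isConjUnder_congr ha hx)
    fun _ _ => Iff.rfl)

omit [Fintype F] in
theorem centralizer_congr {H : Subgroup (MulAut (Matrix.ProjectiveSpecialLinearGroup (Fin n) F))}
    {τ x a : MulAut (Matrix.ProjectiveSpecialLinearGroup (Fin n) F)} (ha : a ∈ H)
    (hx : x = a * τ * a⁻¹) :
    Nonempty (↥(H ⊓ Subgroup.centralizer {x}) ≃* ↥(H ⊓ Subgroup.centralizer {τ})) := by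
  have he : (H ⊓ Subgroup.centralizer {τ}).map (MulAut.conj a).toMonoidHom =
      H ⊓ Subgroup.centralizer {x} := by
    ext y
    rw [Subgroup.mem_map_equiv, Subgroup.mem_inf, Subgroup.mem_inf,
      Subgroup.mem_centralizer_singleton_iff, Subgroup.mem_centralizer_singleton_iff,
      MulAut.conj_symm_apply, hx]
    refine and_congr ⟨fun h => ?_, fun h => mul_mem (mul_mem (inv_mem ha) h) ha⟩ ?_
    · have := mul_mem (mul_mem ha h) (inv_mem ha)
      simpa [mul_assoc] using this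
    · rw [← mul_left_inj a⁻¹, ← mul_right_inj a]
      group
  exact ⟨((Subgroup.equivMapOfInjective (H ⊓ Subgroup.centralizer {τ})
    (MulAut.conj a).toMonoidHom (MulAut.conj a).injective).trans
      (MulEquiv.subgroupCongr he)).symm⟩

/-- In a coset of `PGL_n`, elements of order `r` form one class. -/
theorem Twist.coset_iff {τ : MulAut (Matrix.ProjectiveSpecialLinearGroup (Fin n) F)}
    {ψ : GL (Fin n) F →* GL (Fin n) F} {ψ₀ : Fˣ →* Fˣ} {r : ℕ} (T : Twist τ ψ ψ₀ r)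
    {x δ : MulAut (Matrix.ProjectiveSpecialLinearGroup (Fin n) F)} (a : GL (Fin n) F)
    (hx : x = A n F a * τ * (A n F a)⁻¹) (hxr : orderOf x = r)
    (hδ : δ ∈ Cfsg.inndiagPSL n F) :
    orderOf (δ * x) = r ↔ Cfsg.IsConjUnder (Cfsg.inndiagPSL n F) x (δ * x) := by
  rw [inndiagPSL_eq] at hδ ⊢
  obtain ⟨d, rfl⟩ := hδ
  constructor
  · intro h
    have h1 : A n F (a⁻¹ * d * a) * τ =
        (MulAut.conj (A n F a)⁻¹) (A n F d * x) := by
      rw [MulAut.conj_apply, hx, map_mul, map_mul, map_inv]; group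
    obtain ⟨b, hb⟩ := T.coset_conj (a⁻¹ * d * a) (by
      rw [h1, ← map_pow, ← h, pow_orderOf_eq_one, map_one])
    refine ⟨A n F (a * b * a⁻¹), ⟨_, rfl⟩, ?_⟩
    calc A n F d * x = A n F a * (A n F (a⁻¹ * d * a) * τ) * (A n F a)⁻¹ := by
          rw [hx, map_mul, map_mul, map_inv]; group
      _ = _ := by rw [hb, hx, map_mul, map_mul, map_inv]; group
  · rintro ⟨h, -, he⟩
    rw [he, ← MulAut.conj_apply, MulEquiv.orderOf_eq, hxr]

end Cfsg.Agent.KnownB.AutPSL
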